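import Mathlib
import Cfsg.Agent.Lib.Helper32.P8.Tools
import Cfsg.Agent.Lib.Helper1.Commutator

/-!
# S4409 package (DA) (helper10): `[N, H] ≠ 1` without `P8`-subgroup is a four-group or quaternion
-/

set_option autoImplicit false

universe u

namespace Cfsg.Agent.Lib.Helper10.P8

open Cfsg.Agent.Lib.Helper32.P8

/-- **(DA)** `[N, H] ≠ 1` without `P8`-subgroup is a four-group or quaternion. -/
theorem lemDecA : LemDecA.{u} := by
  intro hTr hGen hQt G _ _ H N hodd hN2 hHN hne hno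
  have hfact : Fact (Nat.Prime 2) := ⟨Nat.prime_two⟩
  have hN1N : ⁅N, H⁆ ≤ N := commutator_le_of_le_normalizer hHN
  have hHN1 : H ≤ Subgroup.normalizer ((⁅N, H⁆ : Subgroup G) : Set G) :=
    le_normalizer_commutator hHN
  have hN12 : IsPGroup 2 ↥(⁅N, H⁆ : Subgroup G) := hN2.to_le hN1N
  -- coprimality
  obtain ⟨k, hk⟩ := IsPGroup.iff_card.mp hN2
  have hcop : (Nat.card H).Coprime (Nat.card N) := by
    rw [hk]
    exact Nat.Coprime.pow_right _ (Nat.coprime_two_right.mpr hodd)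
  have hsolvN : Group.IsSolvable ↥N := by
    have : Group.IsNilpotent ↥N := hN2.isNilpotent
    infer_instance
  have hcc : ⁅⁅N, H⁆, H⁆ = ⁅N, H⁆ :=
    Cfsg.Agent.Lib.Helper1.coprime_commutator_commutator H N hHN hcop (Or.inr hsolvN)
  obtain ⟨A, hAcard, hA1, hA2⟩ := @hTr G _ _ H ⁅N, H⁆ hHN1
  have hgen : Gen ↥(⁅N, H⁆ : Subgroup G) A :=
    { two := hN12
      odd := Odd.of_dvd_nat hodd hAcard
      gen := @hGen G _ H ⁅N, H⁆ A hA2 hcc }
  have hno' : ¬ ∃ B : Subgroup ↥(⁅N, H⁆ : Subgroup G), IsP8 B := by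
    rintro ⟨B', hB'⟩
    refine hno ⟨B'.map (⁅N, H⁆ : Subgroup G).subtype, ?_, (isP8_map_subtype _ B').mpr hB'⟩
    rintro _ ⟨x, -, rfl⟩
    exact x.2
  rcases @hQt ↥(⁅N, H⁆ : Subgroup G) _ _ A hgen hno' with h1 | h4 | hq
  · exfalso
    apply hne
    rw [Subgroup.eq_bot_iff_forall]
    intro x hx
    have hsub : Subsingleton ↥(⁅N, H⁆ : Subgroup G) := (Nat.card_eq_one_iff_unique.mp h1).1
    have := hsub.elim (⟨x, hx⟩ : ↥(⁅N, H⁆ : Subgroup G)) 1
    exact congrArg Subtype.val this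
  · left
    refine ⟨h4.1, fun n hn => ?_⟩
    have := h4.2 ⟨n, hn⟩
    exact congrArg Subtype.val this
  · exact Or.inr hq

end Cfsg.Agent.Lib.Helper10.P8
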