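import Mathlib
import Cfsg.Agent.Lib.Helper32.P8.Tools
import Cfsg.Agent.Lib.Helper1.Hall

/-!
# S4409 package (HALL) (helper10): a Hall `2'`-subgroup of a solvable group
-/

set_option autoImplicit false

universe u

namespace Cfsg.Agent.Lib.Helper10.P8

open Cfsg.Agent.Lib.Helper32.P8

/-- **(HALL)** a complement (in order) to a Sylow 2-subgroup of a finite solvable group. -/
theorem lemHall : LemHall.{u} := by
  intro S _ _ _ X
  have hX : Nat.card (X : Subgroup S) = 2 ^ (Nat.card S).factorization 2 :=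
    Sylow.card_eq_multiplicity X
  have hS0 : Nat.card S ≠ 0 := Nat.card_pos.ne'
  have hmul := Nat.ordProj_mul_ordCompl_eq_self (Nat.card S) 2
  have hcop : Nat.Coprime 2 (Nat.card S / 2 ^ (Nat.card S).factorization 2) :=
    Nat.coprime_ordCompl Nat.prime_two hS0
  have hcop' : Nat.Coprime (Nat.card S / 2 ^ (Nat.card S).factorization 2)
      (2 ^ (Nat.card S).factorization 2) :=
    (Nat.Coprime.pow_right _ hcop.symm)
  obtain ⟨H, hH⟩ := Cfsg.Agent.Lib.Helper1.hall_exists
    (Nat.card S / 2 ^ (Nat.card S).factorization 2) (2 ^ (Nat.card S).factorization 2)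
    (by rw [mul_comm]; exact hmul.symm) hcop'
  refine ⟨H, ?_, ?_⟩
  · rw [hH]
    exact (Nat.coprime_two_left.mp hcop)
  · rw [hH, hX, mul_comm]
    exact hmul

end Cfsg.Agent.Lib.Helper10.P8
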