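import Mathlib
import Cfsg.Agent.Lib.Helper32.P8.Tools

/-!
# S4409 package (Qt4) (helper10)

A four-group `N` extended by a centralizing element `d ∉ N` with `d * d ∈ N` gives a
`P8`-subgroup `N ∪ N d⁻¹`; applied to `N = omZ Y`.
-/

set_option autoImplicit false

universe u

namespace Cfsg.Agent.Lib.Helper10.P8

open Cfsg.Agent.Lib.Helper32.P8 Cfsg.Agent.Lib.Helper32.Scn

/-- The subgroup `N ∪ N d⁻¹` for `d` centralizing `N` with `d * d ∈ N`. -/
def extSub {G : Type u} [Group G] (N : Subgroup G) (d : G)
    (hd : ∀ n ∈ N, n * d = d * n) (hdd : d * d ∈ N) : Subgroup G where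
  carrier := {g | g ∈ N ∨ g * d ∈ N}
  one_mem' := Or.inl N.one_mem
  mul_mem' := by
    have key : ∀ h : G, h * d ∈ N → Commute h d := by
      intro h hh
      have := hd (h * d) hh
      exact mul_right_cancel (by simpa [mul_assoc] using this)
    rintro g h (hg | hg) (hh | hh)
    · exact Or.inl (N.mul_mem hg hh)
    · right
      have : g * h * d = g * (h * d) := by group
      rw [this]; exact N.mul_mem hg hh
    · right
      have : g * h * d = (g * d) * h := by
        rw [mul_assoc, hd h hh, ← mul_assoc]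
      rw [this]; exact N.mul_mem hg hh
    · left
      have hc := key h hh
      have e : (h * d) * (d * d)⁻¹ = d⁻¹ * h := by
        rw [mul_inv_rev, ← mul_assoc, mul_inv_cancel_right]
        exact hc.inv_right.eq
      have : g * h = (g * d) * ((h * d) * (d * d)⁻¹) := by rw [e]; group
      rw [this]
      exact N.mul_mem hg (N.mul_mem hh (N.inv_mem hdd))
  inv_mem' := by
    have key : ∀ h : G, h * d ∈ N → Commute h d := by
      intro h hh
      have := hd (h * d) hh
      exact mul_right_cancel (by simpa [mul_assoc] using this)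
    rintro g (hg | hg)
    · exact Or.inl (N.inv_mem hg)
    · right
      have hc := key g hg
      have : g⁻¹ * d = (g * d)⁻¹ * (d * d) := by
        rw [mul_inv_rev, hc.inv_inv.eq.symm]; group
      rw [this]
      exact N.mul_mem (N.inv_mem hg) hdd

theorem mem_extSub {G : Type u} [Group G] (N : Subgroup G) (d : G)
    (hd : ∀ n ∈ N, n * d = d * n) (hdd : d * d ∈ N) (g : G) :
    g ∈ extSub N d hd hdd ↔ g ∈ N ∨ g * d ∈ N := Iff.rfl

/-- A four-group extended by a centralizing element with square inside: a `P8`-subgroup. -/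
theorem p8_of_four_ext {G : Type u} [Group G] (N : Subgroup G) (d : G)
    (hN4 : Nat.card ↥N = 4) (hN2 : ∀ n ∈ N, n * n = 1)
    (hd : ∀ n ∈ N, n * d = d * n) (hdN : d ∉ N) (hdd : d * d ∈ N) :
    extSub N d hd hdd ≤ N ⊔ Subgroup.zpowers d ∧ IsP8 (extSub N d hd hdd) ∧
      N ⊔ Subgroup.zpowers d ≤ extSub N d hd hdd := by
  set T := extSub N d hd hdd with hT
  have hNT : N ≤ T := fun g hg => Or.inl hg
  have hdT : d ∈ T := Or.inr hdd
  have key : ∀ h : G, h ∈ T → Commute h d := by
    rintro h (hh | hh)
    · exact hd h hh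
    · have := hd (h * d) hh
      exact mul_right_cancel (by simpa [mul_assoc] using this)
  have hNcomm : ∀ a ∈ N, ∀ b ∈ N, Commute a b := by
    intro a ha b hb
    have h1 := hN2 (a * b) (N.mul_mem ha hb)
    have h2 := hN2 a ha
    have h3 := hN2 b hb
    have ea : a⁻¹ = a := inv_eq_of_mul_eq_one_right h2
    have eb : b⁻¹ = b := inv_eq_of_mul_eq_one_right h3
    have : a * b = (a * b)⁻¹ := (inv_eq_of_mul_eq_one_right h1).symm
    rw [mul_inv_rev, ea, eb] at this
    exact this
  refine ⟨?_, ⟨?_, ?_, ?_⟩, ?_⟩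
  · rintro g (hg | hg)
    · exact Subgroup.mem_sup_left hg
    · have : g = (g * d) * d⁻¹ := by group
      rw [this]
      exact Subgroup.mul_mem _ (Subgroup.mem_sup_left hg)
        (Subgroup.mem_sup_right (Subgroup.inv_mem _ (Subgroup.mem_zpowers d)))
  · -- commutative
    have hcomm : ∀ a ∈ T, ∀ b ∈ T, Commute a b := by
      have aux : ∀ a ∈ N, ∀ b ∈ T, Commute a b := by
        rintro a ha b (hb | hb)
        · exact hNcomm a ha b hb
        · have h1 : Commute a (b * d) := hNcomm a ha _ hb
          have h2 : Commute a d := hd a ha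
          have h3 := h1.mul_right h2.inv_right
          rwa [mul_inv_cancel_right] at h3
      rintro a (ha | ha) b hb
      · exact aux a ha b hb
      · have h1 : Commute (a * d) b := aux _ ha b hb
        have h2 : Commute d b := (key b hb).symm
        have h3 := h1.mul_left h2.inv_left
        rwa [mul_inv_cancel_right] at h3
    exact ⟨⟨fun a b => Subtype.ext (hcomm a a.2 b b.2)⟩⟩
  · -- not cyclic
    intro hcyc
    have hNc : IsCyclic ↥(N.subgroupOf T) := inferInstance
    have hNc' : IsCyclic ↥N :=
      isCyclic_of_surjective (Subgroup.subgroupOfEquivOfLe hNT) (Subgroup.subgroupOfEquivOfLe hNT).surjective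
    obtain ⟨g, hg⟩ := hNc'.exists_generator
    have ho : orderOf g = 4 := by
      rw [orderOf_eq_card_of_forall_mem_zpowers hg, hN4]
    have h2 : g ^ 2 = 1 := by
      rw [pow_two]
      exact Subtype.ext (hN2 g g.2)
    have := orderOf_dvd_of_pow_eq_one h2
    rw [ho] at this
    omega
  · -- card
    have h2 : N.relIndex T = 2 := by
      rw [Subgroup.relIndex_eq_two_iff]
      refine ⟨d, hdT, ?_⟩
      rintro b (hb | hb)
      · right
        exact ⟨hb, fun h => hdN (by simpa using N.mul_mem (N.inv_mem hb) h)⟩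
      · left
        refine ⟨hb, fun h => hdN ?_⟩
        simpa using N.mul_mem (N.inv_mem h) hb
    have h3 := Subgroup.relIndex_mul_relIndex (⊥ : Subgroup G) N T bot_le hNT
    rw [Subgroup.relIndex_bot_left, Subgroup.relIndex_bot_left, hN4, h2] at h3
    omega
  · rw [sup_le_iff]
    refine ⟨hNT, ?_⟩
    rw [Subgroup.zpowers_le]
    exact hdT

/-- **(Qt4)** centre a four-group: there is a `P8`-subgroup. -/
theorem lemQt4 : LemQt4.{u} := by
  intro Y _ _ hna hZ hsq hV
  obtain ⟨a, b, hab⟩ := hna
  have haV : a ∉ omZ Y := by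
    intro ha
    exact hab (omZ_comm ha b).symm
  have hd : ∀ n ∈ omZ Y, n * a = a * n := fun n hn => (omZ_comm hn a).symm
  exact ⟨_, (p8_of_four_ext (omZ Y) a hV (fun n hn => omZ_sq hn) hd haV (hsq a)).2.1⟩

end Cfsg.Agent.Lib.Helper10.P8
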