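import Mathlib
import Cfsg.Agent.Lib.Helper32.P8.Tools

/-!
# S4409 package (QtA) (helper10): the abelian case of (Qt)
-/

set_option autoImplicit false

universe u

namespace Cfsg.Agent.Lib.Helper10.P8

open Cfsg.Agent.Lib.Helper32.P8

/-- **(QtA)** abelian case of (Qt). -/
theorem lemQtA : LemQtA.{u} := by
  intro hAb hCyc Y _ _ A hgen hcomm hno
  rcases @hAb Y _ _ hgen.two hcomm hno with hc | h4
  · left
    have htop2 : IsPGroup 2 (⊤ : Subgroup Y) := hgen.two.to_subgroup _
    have htopc : IsCyclic (⊤ : Subgroup Y) :=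
      isCyclic_of_surjective (Subgroup.topEquiv (G := Y)).symm (Subgroup.topEquiv (G := Y)).symm.surjective
    have hfix : ∀ φ ∈ A, ∀ y : Y, φ y = y := by
      intro φ hφ y
      exact @hCyc Y _ _ ⊤ htop2 htopc φ (hgen.odd_order φ hφ)
        (fun b _ => Subgroup.mem_top _) y (Subgroup.mem_top y)
    have hall : ∀ x : Y, x ∈ (⊥ : Subgroup Y) := by
      apply hgen.top_of_mem
      intro ψ hψ x
      rw [hfix ψ hψ x, inv_mul_cancel]
      exact Subgroup.one_mem _
    have hsub : Subsingleton Y := by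
      refine ⟨fun x y => ?_⟩
      have hx := hall x
      have hy := hall y
      rw [Subgroup.mem_bot] at hx hy
      rw [hx, hy]
    exact Nat.card_eq_one_iff_unique.mpr ⟨hsub, ⟨1⟩⟩
  · exact Or.inr h4

end Cfsg.Agent.Lib.Helper10.P8
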